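import Mathlib
import Cfsg.Agent.H31.FewSylow.Perfect
import Cfsg.Agent.H19.Cores

/-!
Perfect groups with Sylow subgroup of order `p` whose number of Sylow subgroups has no special
representation.
-/

set_option autoImplicit false
set_option linter.unusedSectionVars false

namespace Cfsg.Agent.H31.FewSylow

open Cfsg.Agent.H31.Defect
open scoped ComplexConjugate commutatorElement

/-- The exceptional form of `n`. -/
def Rep (n p : ℕ) : Prop :=
  ∃ h u : ℕ, 0 < h ∧ 0 < u ∧ n * (u + 1) = h * u * p + u ^ 2 + u + h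

/-- A divisor `u p + 1` of `e (n p + 1)`. -/
theorem plus_cases' {p n e t d f : ℕ} (he : 1 ≤ e) (het : e * t + 1 = p) (hno : ¬ Rep n p)
    (hep : e < p) (hprod : d * f = e * (n * p + 1)) (hd : (d : ℤ) ≡ 1 [ZMOD p]) :
    d = 1 ∨ d = n * p + 1 := by
  have hd0 : d ≠ 0 := by
    rintro rfl
    rw [zero_mul] at hprod
    exact (Nat.mul_pos he (Nat.succ_pos _)).ne' hprod.symm
  have hp1 : 1 < p := by omega
  have hd' : d % p = 1 := by
    have := (Int.natCast_modEq_iff (a := d) (b := 1) (n := p)).1 (by simpa using hd)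
    rwa [Nat.ModEq, Nat.mod_eq_of_lt hp1] at this
  have hf' : f % p = e := by
    have h1 : (d * f) % p = e := by
      rw [hprod, Nat.mul_add, mul_one, Nat.add_mod, ← mul_assoc, Nat.mul_mod_left, zero_add,
        Nat.mod_mod, Nat.mod_eq_of_lt hep]
    rwa [Nat.mul_mod, hd', one_mul, Nat.mod_mod] at h1
  obtain ⟨u, hu⟩ : ∃ u, d = u * p + 1 := ⟨d / p, by
    conv_lhs => rw [← Nat.div_add_mod d p, hd', mul_comm]⟩
  obtain ⟨v, hv⟩ : ∃ v, f = v * p + e := ⟨f / p, by
    conv_lhs => rw [← Nat.div_add_mod f p, hf', mul_comm]⟩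
  subst hu hv
  have heq : u * v * p + u * e + v = e * n := by
    refine Nat.eq_of_mul_eq_mul_left (show 0 < p by omega) ?_
    have : (u * p + 1) * (v * p + e) = p * (u * v * p + u * e + v) + e := by ring
    rw [this, show e * (n * p + 1) = p * (e * n) + e by ring] at hprod
    omega
  rcases Nat.eq_zero_or_pos v with rfl | hv
  · right
    simp only [mul_zero, zero_mul, zero_add, add_zero] at heq
    have : u = n := Nat.eq_of_mul_eq_mul_left he (by rw [mul_comm e u]; exact heq)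
    rw [this]
  rcases Nat.eq_zero_or_pos u with rfl | hu
  · left; simp
  exfalso
  subst het
  have hdvd : e ∣ v * (u + 1) := by
    obtain ⟨a, ha⟩ : e ∣ u * v * (e * t + 1) + u * e + v := heq ▸ dvd_mul_right e n
    refine Int.natCast_dvd_natCast.1 ⟨(a : ℤ) - u * v * t - u, ?_⟩
    have ha' : ((u * v * (e * t + 1) + u * e + v : ℕ) : ℤ) = ((e * a : ℕ) : ℤ) := by rw [ha]
    push_cast at ha' ⊢
    linear_combination ha'
  obtain ⟨h, hh⟩ := hdvd
  have hh1 : 1 ≤ h := Nat.pos_of_ne_zero fun e0 => by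
    rw [e0, mul_zero] at hh
    exact (Nat.mul_pos hv (Nat.succ_pos u)).ne' hh
  have hn' : n = u * v * t + u + h := by
    refine Nat.eq_of_mul_eq_mul_left he ?_
    calc e * n = u * v * (e * t + 1) + u * e + v := heq.symm
      _ = e * (u * v * t + u) + v * (u + 1) := by ring
      _ = e * (u * v * t + u + h) := by rw [hh]; ring
  refine hno ⟨h, u, hh1, hu, ?_⟩
  calc n * (u + 1) = u * t * (v * (u + 1)) + (u + h) * (u + 1) := by rw [hn']; ring
    _ = u * t * (e * h) + (u + h) * (u + 1) := by rw [hh]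
    _ = _ := by ring

/-- A divisor `u p - 1` of `e (n p + 1)`. -/
theorem minus_cases' {p n e t d f : ℕ} (he : 1 ≤ e) (het : e * t + 1 = p) (hno : ¬ Rep n p)
    (hep : e < p) (hprod : d * f = e * (n * p + 1)) (hd : (d : ℤ) ≡ -1 [ZMOD p])
    (hbig : t = 1 → d ≠ e * (n * p + 1)) :
    d = p - 1 := by
  have hp1 : 1 < p := by omega
  obtain ⟨u, hu⟩ : ∃ u : ℕ, d + 1 = u * p := by
    have h := (Int.modEq_iff_dvd.1 hd.symm)
    rw [sub_neg_eq_add] at h
    obtain ⟨u, hu⟩ := (Int.natCast_dvd_natCast (m := p) (n := d + 1)).1 (by exact_mod_cast h)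
    exact ⟨u, by rw [hu, mul_comm]⟩
  obtain ⟨v, hv⟩ : ∃ v : ℕ, f + e = v * p := by
    have h : (p : ℤ) ∣ ((f + e : ℕ) : ℤ) := by
      obtain ⟨a, ha⟩ := Int.modEq_iff_dvd.1 hd.symm
      refine ⟨a * f - e * n, ?_⟩
      have hp' : ((d * f : ℕ) : ℤ) = ((e * (n * p + 1) : ℕ) : ℤ) := by rw [hprod]
      push_cast at hp' ⊢
      linear_combination (f : ℤ) * ha - hp'
    obtain ⟨v, hv⟩ := Int.natCast_dvd_natCast.1 h
    exact ⟨v, by rw [hv, mul_comm]⟩
  have hu1 : 1 ≤ u := Nat.pos_of_ne_zero fun e => by rw [e, zero_mul] at hu; omega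
  have hv1 : 1 ≤ v := Nat.pos_of_ne_zero fun e0 => by rw [e0, zero_mul] at hv; omega
  rcases Nat.lt_or_ge u 2 with hu2 | hu2
  · obtain rfl : u = 1 := by omega
    omega
  exfalso
  rcases Nat.lt_or_ge (v * t) 2 with hvt | hvt
  · rcases Nat.eq_zero_or_pos t with rfl | ht
    · rw [mul_zero] at het
      omega
    have hv' : v = 1 := by nlinarith
    subst hv'
    obtain rfl : t = 1 := by omega
    refine hbig rfl ?_
    have : f = 1 := by rw [one_mul] at hv; rw [mul_one] at het; omega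
    rw [this, mul_one] at hprod
    exact hprod
  have hu' : (d : ℤ) = u * p - 1 := by
    have : ((d + 1 : ℕ) : ℤ) = ((u * p : ℕ) : ℤ) := by rw [hu]
    push_cast at this; linarith
  have hv' : (f : ℤ) = v * p - e := by
    have : ((f + e : ℕ) : ℤ) = ((v * p : ℕ) : ℤ) := by rw [hv]
    push_cast at this; linarith
  subst het
  have heq : (u : ℤ) * v * (e * t + 1) - u * e - v = e * n := by
    have hp' : ((d * f : ℕ) : ℤ) = ((e * (n * (e * t + 1) + 1) : ℕ) : ℤ) := by rw [hprod]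
    push_cast at hp'
    rw [hu', hv'] at hp'
    push_cast at hp'
    refine mul_left_cancel₀ (a := ((e : ℤ) * t + 1)) (by positivity) ?_
    linear_combination hp'
  obtain ⟨h, hh⟩ : (e : ℤ) ∣ (v : ℤ) * ((u : ℤ) - 1) :=
    ⟨n + u - u * v * t, by linear_combination heq⟩
  have he' : (0 : ℤ) < e := by exact_mod_cast he
  have hpos : (0 : ℤ) < v * ((u : ℤ) - 1) := mul_pos (by exact_mod_cast hv1) (by omega)
  have hh1 : 1 ≤ h := by
    rw [hh] at hpos
    exact Int.lt_of_not_ge fun hle => absurd hpos (not_lt.2 (mul_nonpos_of_nonneg_of_nonpos he'.le (by omega)))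
  have hn' : (n : ℤ) = u * v * t - u + h := by
    refine mul_left_cancel₀ he'.ne' ?_
    linear_combination (-1 : ℤ) * heq + hh
  obtain ⟨h', rfl⟩ := Int.eq_ofNat_of_zero_le (show 0 ≤ h by omega)
  obtain ⟨w, hw⟩ : ∃ w, v * t = w + 1 := ⟨v * t - 1, by omega⟩
  have hwz : (v : ℤ) * t = (w : ℤ) + 1 := by exact_mod_cast hw
  refine hno ⟨h', w, by omega, by omega, ?_⟩
  zify
  linear_combination ((w : ℤ) + 1) * hn' + ((w : ℤ) * t) * hh + ((u : ℤ) + w) * hwz

variable {G : Type*} [Group G] [Fintype G] {p : ℕ} [hp : Fact p.Prime] {z : G} {V H : Subgroup G}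

/-- The shape of the block when `n` is not exceptional. -/
theorem shape' (S : Parts p z V H) (B : BlockData p z V) (hperf : commutator G = ⊤) {n : ℕ}
    (hn1 : 1 ≤ n) (hcard : Nat.card (Sylow p G) = n * p + 1) (hno : ¬ Rep n p) : Shape B n := by
  classical
  set e := (H30.conjExps p z).card with he
  set c : Cfsg.IrrCharacter G → ℤ := fun χ => B.b χ - B.m χ 0 with hc
  have he0 : 1 ≤ e := S.card_exp_pos
  have hp2 := hp.out.two_le
  have het : e * B.t + 1 = p := by have h := B.et; rw [← he] at h; omega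
  have ht0 : 1 ≤ B.t := Nat.pos_of_ne_zero fun e0 => by rw [e0, mul_zero] at het; omega
  have hep : e < p := by
    have : e * 1 ≤ e * B.t := Nat.mul_le_mul_left e ht0
    omega
  have hG := card_group S hcard
  have hprod : ∀ d, d * (p * Nat.card V) ∣ Nat.card G → ∃ f, d * f = e * (n * p + 1) := by
    intro d hd
    rw [hG, mul_comm d] at hd
    obtain ⟨f, hf⟩ := Nat.dvd_of_mul_dvd_mul_left
      (Nat.mul_pos hp.out.pos Nat.card_pos) hd
    exact ⟨f, hf.symm⟩
  have hneg : ∀ χ, c χ = -1 → χ = H26.oneIrr G ∨ Cfsg.charDegree χ.1 = n * p + 1 := by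
    intro χ hχ
    have hne : B.b χ - B.m χ 0 ≠ 0 := by
      simp only [hc] at hχ
      rw [hχ]; decide
    obtain ⟨f, hf⟩ := hprod _ (B.dvd χ hne)
    rcases plus_cases' he0 het hno hep hf (by
      rw [Int.modEq_iff_dvd]
      have e1 : (1 : ℤ) - Cfsg.charDegree χ.1 = -((Cfsg.charDegree χ.1 : ℤ) + c χ) := by
        rw [hχ]; ring
      rw [e1]; exact dvd_neg.2 (B.cong χ hne)) with h1 | h1
    · exact Or.inl (eq_one_of_linear hperf h1)
    · exact Or.inr h1
  -- counts
  set A := Finset.univ.filter fun χ => χ ≠ H26.oneIrr G ∧ c χ = -1 with hA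
  set Bs := Finset.univ.filter fun χ => χ ≠ H26.oneIrr G ∧ c χ = 1 with hBs
  have hc1 : c (H26.oneIrr G) = -1 := by simp [hc, B.b_one, B.m_one]
  have hsplit : ∀ g : Cfsg.IrrCharacter G → ℤ, (∀ χ, c χ = 0 → g χ = 0) →
      ∑ χ, g χ = g (H26.oneIrr G) + (∑ χ ∈ A, g χ + ∑ χ ∈ Bs, g χ) := by
    intro g hg
    rw [← Finset.add_sum_erase _ _ (Finset.mem_univ (H26.oneIrr G)), ← Finset.sum_union
      (Finset.disjoint_filter.2 fun χ _ h h' => by rw [h.2] at h'; simp at h')]
    congr 1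
    symm
    refine Finset.sum_subset (fun χ hχ => ?_) fun χ hχ hχ' => hg χ ?_
    · simp only [Finset.mem_union, Finset.mem_filter, Finset.mem_univ, true_and] at hχ
      exact Finset.mem_erase.2 ⟨hχ.elim (fun h => h.1) fun h => h.1, Finset.mem_univ _⟩
    · simp only [Finset.mem_union, Finset.mem_filter, Finset.mem_univ, true_and,
        not_or, not_and] at hχ'
      have hne := Finset.ne_of_mem_erase hχ
      have := abs_le.1 (B.abs_le χ)
      have h1 := hχ'.1 hne
      have h2 := hχ'.2 hne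
      simp only [hc] at h1 h2 ⊢
      omega
  have hcount : (1 : ℤ) + (A.card + Bs.card) = e := by
    have h := B.sq_sum
    rw [hsplit (fun χ => c χ ^ 2) (fun χ h => by rw [h]; rfl)] at h
    rw [hc1, Finset.sum_congr rfl fun χ hχ => by rw [(Finset.mem_filter.1 hχ).2.2],
      Finset.sum_congr rfl (s₁ := Bs) fun χ hχ => by rw [(Finset.mem_filter.1 hχ).2.2]] at h
    simpa using h
  have hdegA : ∀ χ ∈ A, Cfsg.charDegree χ.1 = n * p + 1 := fun χ hχ =>
    (hneg χ (Finset.mem_filter.1 hχ).2.2).resolve_left (Finset.mem_filter.1 hχ).2.1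
  have hdeg1 : Cfsg.charDegree (H26.oneIrr G).1 = 1 := H26.charDegree_eq (by simp [H26.oneIrr_val])
  have heq0 : (-1 : ℤ) + (-(A.card : ℤ) * (n * p + 1) +
      ∑ χ ∈ Bs, (Cfsg.charDegree χ.1 : ℤ)) + B.ε * B.D = 0 := by
    have h := B.deg_sum
    change ∑ χ, (Cfsg.charDegree χ.1 : ℤ) * c χ + B.ε * B.D = 0 at h
    rw [hsplit _ (fun χ h => by rw [h, mul_zero])] at h
    rw [hdeg1, hc1, Finset.sum_congr rfl fun χ hχ => by
        rw [hdegA χ hχ, (Finset.mem_filter.1 hχ).2.2],
      Finset.sum_congr rfl (s₁ := Bs) fun χ hχ => by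
        rw [(Finset.mem_filter.1 hχ).2.2, mul_one],
      Finset.sum_const, nsmul_eq_mul] at h
    push_cast at h
    linarith
  have hBnn : (0 : ℤ) ≤ ∑ χ ∈ Bs, (Cfsg.charDegree χ.1 : ℤ) :=
    Finset.sum_nonneg fun χ _ => Nat.cast_nonneg _
  obtain ⟨θ₀, hθ₀⟩ := Finset.card_pos.1 (show 0 < B.K.card by rw [B.cardK]; exact ht0)
  have hD1 : B.D ≠ 1 := fun h => B.one_not (eq_one_of_linear hperf ((B.degK θ₀ hθ₀).trans h) ▸ hθ₀)
  have he2 : 2 ≤ e := by
    by_contra hlt
    have hA0 : A.card = 0 := by omega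
    have hB0 : Bs = ∅ := Finset.card_eq_zero.1 (by omega)
    rw [hA0, hB0, Finset.sum_empty] at heq0
    simp only [CharP.cast_eq_zero, neg_zero, zero_mul, add_zero] at heq0
    rcases B.eps with h | h <;> rw [h] at heq0 <;> omega
  have hP2 : (2 : ℤ) ≤ (n : ℤ) * p + 1 := by
    have := Nat.mul_le_mul hn1 hp2
    have : ((2 : ℕ) : ℤ) ≤ ((n * p + 1 : ℕ) : ℤ) := by exact_mod_cast (by omega : 2 ≤ n * p + 1)
    push_cast at this
    exact this
  have hnp : ¬ (p : ℤ) ∣ (e : ℤ) := fun hd => by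
    have := Nat.le_of_dvd (by omega) (Int.natCast_dvd_natCast.1 hd); omega
  obtain ⟨f, hf⟩ := hprod _ B.dvdK
  have hprodZ : (B.D : ℤ) * f = (e : ℤ) * (n * p + 1) := by exact_mod_cast hf
  obtain ⟨q, hq⟩ := B.congK
  -- the exceptional degree
  have hexc : (B.ε = 1 ∧ B.D = e) ∨ (B.ε = -1 ∧ B.t * B.D = n * p + 1) := by
    rcases B.eps with hε | hε
    · left
      rw [hε, one_mul] at hq
      have hf1 : (f : ℤ) ≡ 1 [ZMOD p] := by
        rw [Int.modEq_iff_dvd]
        refine ((Nat.prime_iff_prime_int.1 hp.out).dvd_or_dvd ?_).resolve_left hnp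
        exact ⟨q * f - e * n, by linear_combination (f : ℤ) * hq - hprodZ⟩
      rcases plus_cases' he0 het hno hep (d := f) (f := B.D) (by rw [mul_comm]; exact hf) hf1
        with h | h
      · exfalso
        rw [h, mul_one] at hf
        have hDz : (B.D : ℤ) = (e : ℤ) * (n * p + 1) := by exact_mod_cast hf
        rw [hε, hDz, one_mul] at heq0
        have h3 : (A.card : ℤ) * (n * p + 1) ≤ ((e : ℤ) - 1) * (n * p + 1) :=
          mul_le_mul_of_nonneg_right (by omega) (by omega)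
        linarith
      · rw [h] at hf
        exact ⟨hε, Nat.eq_of_mul_eq_mul_right (Nat.succ_pos _) hf⟩
    · right
      rw [hε] at hq
      have hf1 : (f : ℤ) ≡ -1 [ZMOD p] := by
        rw [Int.modEq_iff_dvd]
        refine ((Nat.prime_iff_prime_int.1 hp.out).dvd_or_dvd ?_).resolve_left hnp
        exact ⟨-(q * f) + e * n, by linear_combination -(f : ℤ) * hq + hprodZ⟩
      have hfe : f = p - 1 := by
        refine minus_cases' he0 het hno hep (d := f) (f := B.D) (by rw [mul_comm]; exact hf) hf1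
          (fun _ hfbig => hD1 ?_)
        rw [hfbig] at hf
        exact Nat.eq_of_mul_eq_mul_right (Nat.mul_pos he0 (Nat.succ_pos _))
          (hf.trans (one_mul _).symm)
      rw [hfe, show p - 1 = e * B.t by omega] at hf
      exact ⟨hε, Nat.eq_of_mul_eq_mul_left he0 (by rw [← hf]; ring)⟩
  -- the positive degrees
  have hdegB : ∀ χ ∈ Bs, Cfsg.charDegree χ.1 = p - 1 := by
    intro χ hχ
    have h := (Finset.mem_filter.1 hχ).2.2
    have hne : B.b χ - B.m χ 0 ≠ 0 := by
      simp only [hc] at h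
      rw [h]; decide
    obtain ⟨g, hg⟩ := hprod _ (B.dvd χ hne)
    refine minus_cases' he0 het hno hep hg (by
      rw [Int.modEq_iff_dvd]
      have e1 : (-1 : ℤ) - Cfsg.charDegree χ.1 = -((Cfsg.charDegree χ.1 : ℤ) + c χ) := by
        rw [h]; ring
      rw [e1]; exact dvd_neg.2 (B.cong χ hne)) fun ht hbig => ?_
    have h1 : (Cfsg.charDegree χ.1 : ℤ) ≤ ∑ χ' ∈ Bs, (Cfsg.charDegree χ'.1 : ℤ) :=
      Finset.single_le_sum (f := fun χ' : Cfsg.IrrCharacter G => (Cfsg.charDegree χ'.1 : ℤ))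
        (fun χ' _ => Nat.cast_nonneg _) hχ
    have h2 : 0 < Bs.card := Finset.card_pos.2 ⟨χ, hχ⟩
    have hbz : (Cfsg.charDegree χ.1 : ℤ) = (e : ℤ) * (n * p + 1) := by exact_mod_cast hbig
    rw [hbz] at h1
    have h3 : (A.card : ℤ) * (n * p + 1) ≤ ((e : ℤ) - 2) * (n * p + 1) :=
      mul_le_mul_of_nonneg_right (by omega) (by omega)
    rcases hexc with ⟨hε, -⟩ | ⟨hε, hD⟩
    · rw [hε] at heq0
      have : (0 : ℤ) ≤ (B.D : ℤ) := Nat.cast_nonneg _
      linarith
    · rw [ht, one_mul] at hD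
      have hDz : (B.D : ℤ) = (n : ℤ) * p + 1 := by exact_mod_cast hD
      rw [hε, hDz] at heq0
      linarith
  have hsupp : ∀ χ, c χ ≠ 0 → χ = H26.oneIrr G ∨
      (Cfsg.charDegree χ.1 = n * p + 1 ∧ c χ = -1) ∨ (Cfsg.charDegree χ.1 = p - 1 ∧ c χ = 1) := by
    intro χ hχ
    have habs := abs_le.1 (B.abs_le χ)
    rcases (show c χ = -1 ∨ c χ = 1 by simp only [hc] at hχ ⊢; omega) with h | h
    · exact (hneg χ h).imp id fun h1 => Or.inl ⟨h1, h⟩
    · by_cases h1 : χ = H26.oneIrr G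
      · exact Or.inl h1
      · exact Or.inr (Or.inr ⟨hdegB χ (Finset.mem_filter.2 ⟨Finset.mem_univ _, h1, h⟩), h⟩)
  refine ⟨he2, hsupp, ?_⟩
  have heqn : (-1 : ℤ) + (-(A.card : ℤ) * (n * p + 1) + Bs.card * ((p : ℤ) - 1)) +
      B.ε * B.D = 0 := by
    rw [Finset.sum_congr rfl fun χ hχ => by rw [hdegB χ hχ], Finset.sum_const, nsmul_eq_mul,
      Nat.cast_sub hp.out.one_le] at heq0
    push_cast at heq0
    linarith
  have hpe : (p : ℤ) = (e : ℤ) * B.t + 1 := by exact_mod_cast het.symm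
  have hp0 : (p : ℤ) ≠ 0 := by exact_mod_cast hp.out.ne_zero
  rcases hexc with ⟨hε, hD⟩ | ⟨hε, hD⟩
  · left
    refine ⟨hε, hD, A.card, ?_⟩
    rw [hε, one_mul, hD] at heqn
    have hz : (Bs.card : ℤ) - A.card * n = 0 :=
      (mul_eq_zero.1 (by linear_combination heqn + hcount :
        (p : ℤ) * ((Bs.card : ℤ) - A.card * n) = 0)).resolve_left hp0
    have : (e : ℤ) = (A.card : ℤ) * ((n : ℤ) + 1) + 1 := by linear_combination hz - hcount
    exact_mod_cast this
  · right
    have hDz : (B.t : ℤ) * B.D = (n : ℤ) * p + 1 := by exact_mod_cast hD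
    rw [hε] at heqn
    have hz : (B.t : ℤ) * ((Bs.card : ℤ) - A.card * n) - ((n : ℤ) + 1) = 0 :=
      (mul_eq_zero.1 (by linear_combination (B.t : ℤ) * heqn + (B.t : ℤ) * hcount + hDz - hpe :
        (p : ℤ) * ((B.t : ℤ) * ((Bs.card : ℤ) - A.card * n) - ((n : ℤ) + 1)) = 0)).resolve_left hp0
    obtain ⟨k, hk⟩ : ∃ k : ℕ, (Bs.card : ℤ) - A.card * n = k := by
      refine ⟨((Bs.card : ℤ) - A.card * n).toNat, (Int.toNat_of_nonneg ?_).symm⟩
      by_contra hneg'
      have : (B.t : ℤ) * ((Bs.card : ℤ) - A.card * n) ≤ 0 :=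
        mul_nonpos_of_nonneg_of_nonpos (by positivity) (by omega)
      omega
    refine ⟨hε, hD, A.card, k, ?_, ?_⟩
    · rw [hk] at hz
      have : (k : ℤ) * B.t = (n : ℤ) + 1 := by linear_combination hz
      exact_mod_cast this
    · have : (e : ℤ) = (A.card : ℤ) * ((n : ℤ) + 1) + k + 1 := by linear_combination hk - hcount
      exact_mod_cast this

/-- A character without fixed points of `z` whose values ignore `V` shows `V` is trivial. -/
theorem V_le_bot (S : Parts p z V H) (hcore : ∀ M : Subgroup G, M.Normal → ¬ p ∣ Nat.card M → M = ⊥)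
    (χ : Cfsg.IrrCharacter G) (h0 : ∑ i : ZMod p, χ.1 (z ^ i.val) = 0)
    (hval : ∀ i : ZMod p, i ≠ 0 → ∀ v ∈ V, χ.1 (z ^ i.val * v) = χ.1 (z ^ i.val)) : V = ⊥ := by
  classical
  obtain ⟨d, ρ, -, hρ⟩ := χ.2
  have hker : ∀ g : G, g ∈ ρ.ker ↔ χ.1 g = χ.1 1 := by
    intro g
    have hmk : g ∈ ρ.ker ↔ ρ g = LinearMap.id := MonoidHom.mem_ker
    rw [hmk, ← H25.char_eq_degree_iff ρ g, ← congrFun hρ g, ← congrFun hρ 1, ρ.char_one]
  have hpM : ¬ p ∣ Nat.card ρ.ker := by
    intro hd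
    obtain ⟨y, hy⟩ := exists_prime_orderOf_dvd_card' p hd
    obtain ⟨P, hP⟩ := sylow_eq_zpowers S.sq (show orderOf (y : G) = p by
      rw [Subgroup.orderOf_coe]; exact hy)
    obtain ⟨Q, hQ⟩ := sylow_eq_zpowers S.sq S.ord
    obtain ⟨g, hg⟩ := MulAction.exists_smul_eq G P Q
    have h2 : z ∈ ((g • P : Sylow p G) : Subgroup G) := by
      rw [hg, hQ]; exact Subgroup.mem_zpowers z
    rw [Sylow.coe_subgroup_smul, hP] at h2
    obtain ⟨b, hb, hbz⟩ := h2
    have hzM : z ∈ ρ.ker := hbz ▸ (MonoidHom.normal_ker ρ).conj_mem b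
      (Subgroup.zpowers_le.2 y.2 hb) g
    rw [Finset.sum_congr rfl fun i _ => (hker _).1 (Subgroup.pow_mem _ hzM _), Finset.sum_const,
      Finset.card_univ, ZMod.card, nsmul_eq_mul, mul_eq_zero] at h0
    exact h0.elim (Nat.cast_ne_zero.2 hp.out.ne_zero) (H26.irr_one_ne_zero χ)
  have hbot := hcore _ (MonoidHom.normal_ker ρ) hpM
  rw [eq_bot_iff, ← hbot]
  intro v hv
  rw [hker]
  refine char_eq_of_eigen_zero χ S.ord 0 ?_ (v := v) fun i hi => hval i hi v hv
  simp only [zero_mul, AddChar.map_zero_eq_one, map_one, mul_one, h0]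

theorem V_eq_bot (S : Parts p z V H) (B : BlockData p z V) {n : ℕ} (Sh : Shape B n)
    (hcore : ∀ M : Subgroup G, M.Normal → ¬ p ∣ Nat.card M → M = ⊥) : V = ⊥ := by
  classical
  have hsplit : ∀ χ : Cfsg.IrrCharacter G, ∑ i : ZMod p, χ.1 (z ^ i.val) =
      (Cfsg.charDegree χ.1 : ℂ) + ∑ i ∈ Finset.univ.erase (0 : ZMod p), χ.1 (z ^ i.val) := fun χ => by
    rw [← Finset.add_sum_erase _ _ (Finset.mem_univ (0 : ZMod p)), ZMod.val_zero, pow_zero,
      (irr_degree χ).1]
  rcases Sh.cases with ⟨hε, hD, -⟩ | ⟨hε, -, -⟩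
  · obtain ⟨θ, hθ⟩ := Finset.card_pos.1 (show 0 < B.K.card by
      rw [B.cardK]
      refine Nat.pos_of_ne_zero fun h => ?_
      have h' := B.et
      rw [h, mul_zero] at h'
      have := hp.out.two_le
      omega)
    refine V_le_bot S hcore θ ?_ fun i hi v hv => ?_
    · have hval : ∀ i ∈ Finset.univ.erase (0 : ZMod p), θ.1 (z ^ i.val) =
          (B.ε : ℂ) * ∑ k ∈ fib B.κ θ, ZMod.stdAddChar (k * i) := fun i hi => by
        have h := B.valK θ hθ i (Finset.ne_of_mem_erase hi) 1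
        rwa [Subgroup.coe_one, mul_one] at h
      rw [hsplit, Finset.sum_congr rfl hval, ← Finset.mul_sum, Finset.sum_comm,
        Finset.sum_congr rfl fun k hk => (by
          simp only [mul_comm k]
          exact sum_std_ne_zero (mem_fib.1 hk).1 :
            ∑ i ∈ Finset.univ.erase (0 : ZMod p), (ZMod.stdAddChar (k * i) : ℂ) = -1),
        Finset.sum_const, B.fiber θ hθ, B.degK θ hθ, hD, hε, nsmul_eq_mul]
      push_cast
      ring
    · rw [B.valK θ hθ i hi ⟨v, hv⟩]
      have h := B.valK θ hθ i hi 1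
      rw [Subgroup.coe_one, mul_one] at h
      exact h.symm
  · obtain ⟨χ, hχ⟩ : ∃ χ, B.b χ - B.m χ 0 = 1 := by
      by_contra hcon
      push Not at hcon
      have h := B.deg_sum
      have hle : ∑ χ, (Cfsg.charDegree χ.1 : ℤ) * (B.b χ - B.m χ 0) ≤ 0 :=
        Finset.sum_nonpos fun χ _ => mul_nonpos_of_nonneg_of_nonpos (Nat.cast_nonneg _) (by
          have := abs_le.1 (B.abs_le χ)
          have := hcon χ
          omega)
      have := B.D_pos
      rw [hε] at h
      omega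
    have hdeg : Cfsg.charDegree χ.1 = p - 1 := by
      rcases Sh.supp χ (by rw [hχ]; decide) with h | ⟨-, h⟩ | ⟨h, -⟩
      · rw [h, B.b_one, B.m_one, if_pos rfl] at hχ
        exact absurd hχ (by decide)
      · rw [hχ] at h
        exact absurd h (by decide)
      · exact h
    have hv : ∀ i : ZMod p, i ≠ 0 → ∀ v : V, χ.1 (z ^ i.val * (v : G)) = -1 := fun i hi v => by
      rw [B.val χ (by rw [hχ]; decide) i hi v, hχ]
      norm_num
    refine V_le_bot S hcore χ ?_ fun i hi v hv' => ?_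
    · rw [hsplit, Finset.sum_congr rfl fun i hi => (by
        have h := hv i (Finset.ne_of_mem_erase hi) 1
        rwa [Subgroup.coe_one, mul_one] at h : χ.1 (z ^ i.val) = -1),
        Finset.sum_const, Finset.card_erase_of_mem (Finset.mem_univ _), Finset.card_univ, ZMod.card,
        nsmul_eq_mul, hdeg]
      ring
    · have h := hv i hi 1
      rw [Subgroup.coe_one, mul_one] at h
      exact (hv i hi ⟨v, hv'⟩).trans h.symm

/-- A perfect group with trivial `p'`-core has no normal Sylow subgroup of order `p`. -/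
theorem normalizer_ne_top' {G : Type*} [Group G] [Fintype G] {z : G} (hperf : commutator G = ⊤)
    (hz : orderOf z = p) (hsq : ¬ p ^ 2 ∣ Nat.card G) :
    Subgroup.normalizer ((Subgroup.zpowers z : Subgroup G) : Set G) ≠ ⊤ := by
  classical
  intro htop
  have hcentral : ∀ g : G, g * z = z * g := by
    have hle : commutator G ≤ Subgroup.centralizer ({z} : Set G) := by
      rw [commutator_def, Subgroup.commutator_le]
      intro g _ h _
      obtain ⟨a, -, -, ha⟩ := exists_exp_of_mem_normalizer hz (g := g) (htop ▸ Subgroup.mem_top g)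
      obtain ⟨b, -, -, hb⟩ := exists_exp_of_mem_normalizer hz (g := h) (htop ▸ Subgroup.mem_top h)
      have hcc : ∀ (x : G) (i : ℕ), x * z ^ i * x⁻¹ = (x * z * x⁻¹) ^ i := fun x i => conj_pow.symm
      have hg' : g⁻¹ * z ^ a * g = z := by rw [← ha]; group
      have hh' : h⁻¹ * z ^ b * h = z := by rw [← hb]; group
      rw [Subgroup.mem_centralizer_singleton_iff, commutatorElement_def]
      have key : g * h * z * (g * h)⁻¹ = h * g * z * (h * g)⁻¹ := by
        rw [show g * h * z * (g * h)⁻¹ = g * (h * z * h⁻¹) * g⁻¹ by group,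
          show h * g * z * (h * g)⁻¹ = h * (g * z * g⁻¹) * h⁻¹ by group, ha, hb, hcc, hcc, ha, hb,
          ← pow_mul, ← pow_mul, mul_comm]
      obtain ⟨y, hy⟩ : ∃ y, (h * g)⁻¹ * (g * h) = y := ⟨_, rfl⟩
      have hyz : y * z = z * y := by
        rw [← mul_inv_eq_iff_eq_mul, ← hy,
          show (h * g)⁻¹ * (g * h) * z * ((h * g)⁻¹ * (g * h))⁻¹ =
            (h * g)⁻¹ * (g * h * z * (g * h)⁻¹) * (h * g) by group, key]
        group
      -- `⁅g, h⁆` is a conjugate of `y` by an element normalising `⟨z⟩`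
      obtain ⟨c, -, -, hc⟩ := exists_exp_of_mem_normalizer hz (g := (h * g)⁻¹)
        (htop ▸ Subgroup.mem_top _)
      have hzc : z = (h * g) * z ^ c * (h * g)⁻¹ := by rw [← hc]; group
      have hyc : y * z ^ c = z ^ c * y := (Commute.pow_right hyz c).eq
      rw [show g * h * g⁻¹ * h⁻¹ = (h * g) * y * (h * g)⁻¹ by rw [← hy]; group]
      calc (h * g) * y * (h * g)⁻¹ * z = (h * g) * (y * z ^ c) * (h * g)⁻¹ := by
            conv_lhs => rw [hzc]
            group
        _ = (h * g) * (z ^ c * y) * (h * g)⁻¹ := by rw [hyc]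
        _ = z * ((h * g) * y * (h * g)⁻¹) := by
            conv_rhs => rw [hzc]
            group
    intro g
    exact Subgroup.mem_centralizer_singleton_iff.1 (hle (hperf ▸ Subgroup.mem_top g))
  obtain ⟨P, hP⟩ := sylow_eq_zpowers hsq hz
  have hNC : Subgroup.normalizer (P : Set G) ≤ Subgroup.centralizer (P : Set G) := by
    intro g _ y hy
    have hy' : y ∈ Subgroup.zpowers z := by rw [← hP]; exact hy
    obtain ⟨s, rfl⟩ := hy'
    exact ((Commute.zpow_right (show Commute g z from hcentral g) s).eq).symm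
  have hcompl := MonoidHom.ker_transferSylow_isComplement' P hNC
  set f := MonoidHom.transferSylow P hNC with hf
  have hker : (⊤ : Subgroup G) ≤ f.ker := by
    rw [← hperf, commutator_def, Subgroup.commutator_le]
    intro a _ b _
    rw [MonoidHom.mem_ker, map_commutatorElement, commutatorElement_eq_one_iff_mul_comm]
    exact Subtype.ext (hNC (Subgroup.le_normalizer (f b).2) (f a) (f a).2)
  rw [top_le_iff.1 hker] at hcompl
  have hbot := Subgroup.isComplement'_top_left.1 hcompl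
  rw [hP, Subgroup.zpowers_eq_bot] at hbot
  rw [hbot, orderOf_one] at hz
  exact hp.out.ne_one hz.symm

end Cfsg.Agent.H31.FewSylow
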